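import Groth.Agent.PerfB.BCTens280
import Groth.Agent.PerfB.TensExact
import Groth.Agent.PerfB.StructFlat
import Groth.Agent.Dcoh.BCFrozen1058

/-!
# Derived base change for a flat morphism and an arbitrary base change

`bc_flat_left`: for a cartesian square `g' ≫ f = f' ≫ g` with `f` flat, quasi-compact and quasi-separated and `g`
arbitrary, the derived base change `Lg^* Rf_* K ≅ Rf'_* Lg'^* K` holds for every `K` in `D_QCoh(O_X)`, in the
language of arrows of `Groth.Agent.PerfB.BCTot`.
`bc_tor`: the two cases `f` flat, `g` flat together.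
-/

set_option autoImplicit false

universe u

open CategoryTheory CategoryTheory.Limits AlgebraicGeometry Pretriangulated

attribute [local instance] HasDerivedCategory.standard

namespace Groth.Agent.Dual.H306.BCLeft

open Groth.Agent.PerfB Groth.Agent.PerfB.BCTot Groth.Agent.PerfB.BCTot.Tot Groth.Agent.PerfB.BCCx
  Groth.Agent.PerfB.BCSch Groth.Agent.PerfB.BCAdapt Groth.Agent.Dcoh

attribute [local instance] hasLpull Groth.Agent.Dcoh.DerSch.hasRpush

/-- `E ⊗ O_X ≅ E` for complexes. -/
noncomputable def tensUnitIso {X : Scheme.{u}} (E : CochainComplex X.Modules ℤ) :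
    (tensG (Coh.structureModule X)).obj E ≅ E :=
  (NatIso.mapHomologicalComplex (TensExact.tensorRightModUnit (X := X)) (ComplexShape.up ℤ)).app E ≪≫
    (Functor.mapHomologicalComplexIdIso X.Modules (ComplexShape.up ℤ)).app E

/-- Base change for `f` flat, `g` arbitrary. -/
theorem bc_flat_left {X X' S S' : Scheme.{u}} {f : X ⟶ S} {f' : X' ⟶ S'} {g : S' ⟶ S} {g' : X' ⟶ X}
    [QuasiCompact f] [QuasiSeparated f] [Flat f] (sq : IsPullback g' f' f g) (K : DCoh.D X)
    (hK : DCoh.IsQCohD K) : BC (cartLift (P := dPull.{u}) ⟨X, K⟩ g') f f' g := by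
  obtain ⟨E, q, hE, hq⟩ := Groth.Agent.Dcoh.KFlatInput.exists_kflat (DerivedCategory.Q.objPreimage K)
  have hi : IsIso (DerivedCategory.Q.map q) := (DerivedCategory.isIso_Q_map_iff_quasiIso _ _).2 hq
  let i : DerivedCategory.Q.obj E ≅ K :=
    asIso (DerivedCategory.Q.map q) ≪≫ DerivedCategory.Q.objObjPreimageIso K
  have hqc : DCoh.IsQCohD (DerivedCategory.Q.obj E) := Groth.Agent.PerfA.QCohD.isQCohD_of_iso i.symm hK
  refine BCFrozen1058.bc_of_kflat E hE K i ?_
  exact BCTens280.bc_of_isCart (cartLift (P := cxMod.{u}) ⟨X, E⟩ g') (isCart_cartLift _ _) rfl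
    (tensUnitIso E)
    (BCTens280.bc_tens sq E hE hqc (Coh.structureModule X) (Ega2.QCohLocal.isQCoh_structureModule X)
      (StructFlat.isFlatOver_structure f))

/-- Base change when `f` or `g` is flat. -/
theorem bc_tor {X X' S S' : Scheme.{u}} {f : X ⟶ S} {f' : X' ⟶ S'} {g : S' ⟶ S} {g' : X' ⟶ X}
    [QuasiCompact f] [QuasiSeparated f] (hflat : Flat f ∨ Flat g) (sq : IsPullback g' f' f g)
    (K : DCoh.D X) (hK : DCoh.IsQCohD K) : BC (cartLift (P := dPull.{u}) ⟨X, K⟩ g') f f' g := by
  rcases hflat with h | h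
  · exact bc_flat_left sq K hK
  · exact BCAff.bc_flat sq K hK

end Groth.Agent.Dual.H306.BCLeft
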