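import Groth.Agent.Dual.H306.Formal
import Groth.Agent.Dual.H306.BCLeft
import Groth.Agent.S1054
import Groth.Prelude.Def_Dual3

/-!
# Base change for derived direct images on `D_QCoh`

* `lpullPreservesQCoh`: `Lg^*` preserves `D_QCoh`.
* `adjQ`: the restriction to `D_QCoh` of an adjunction `Lg^* ⊣ Rg_*`; `lAdjQ`: the restriction of `lAdj g`.
* `bcCan`: the canonical base change morphism on `D(O)`, with its characterization `bcCan_fac`;
  `exists_bcPush_eq_bcCan`: for ARBITRARY adjunctions on `D_QCoh` some `e` gives `Dual3.bcPush e adjg adjg' K = bcCan`.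
* `exists_bcPush`: for a cartesian square with `f` quasi-compact and quasi-separated, and `f` or `g` flat, for
  ARBITRARY adjunctions `LpullQ g ⊣ RpushQ g` and `LpullQ g' ⊣ RpushQ g'` there is an `e` with all maps
  `Dual3.bcPush e adjg adjg' K` isomorphisms.
* `isIso_xi`: if all `Dual3.bcPush e adjg adjg' K` are isomorphisms, then all `Dual3.xi adj adj' e M` are
  isomorphisms.
* `exists_xi`: (the content of S3602).
-/

set_option autoImplicit false

universe u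

open CategoryTheory CategoryTheory.Limits AlgebraicGeometry

attribute [local instance] HasDerivedCategory.standard

namespace Groth.Agent.Dual.H306.BCPushQ

open Groth.Agent.PerfB.BCTot Groth.Agent.PerfB.BCTot.Tot Groth.Agent.PerfB.BCShift
  Groth.Agent.Dcoh.BCCanon300 Groth.Agent.Dcoh.BCFrozen1058 Groth.Agent.PerfB.BCSch

/-- `Lg^*` always exists. -/
theorem hasLpull' {Y Y' : Scheme.{u}} (g : Y' ⟶ Y) : DCoh.HasLpull g := hasLpull g

/-- `Lg^*` preserves `D_QCoh`. -/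
theorem lpullPreservesQCoh {Y Y' : Scheme.{u}} (g : Y' ⟶ Y) [DCoh.HasLpull g] :
    Dual3.LpullPreservesQCoh g := fun K hK => S1054.result g K hK

section Adj

variable {Y Y' : Scheme.{u}} {g : Y' ⟶ Y} [DCoh.HasLpull g] [DCoh.HasRpush g]

/-- The restriction to `D_QCoh` of an adjunction `Lg^* ⊣ Rg_*`. -/
noncomputable def adjQ (adj : DCoh.Lpull g ⊣ DCoh.Rpush g) (hL : Dual3.LpullPreservesQCoh g)
    (hR : DCoh.RpushPreservesQCoh g) : Dual3.LpullQ g hL ⊣ DCoh.RpushQ g hR where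
  unit :=
    { app K := ObjectProperty.homMk (adj.unit.app K.obj)
      naturality _ _ φ := by
        ext
        exact adj.unit.naturality φ.hom }
  counit :=
    { app K := ObjectProperty.homMk (adj.counit.app K.obj)
      naturality _ _ φ := by
        ext
        exact adj.counit.naturality φ.hom }
  left_triangle_components K := by
    ext
    exact adj.left_triangle_components K.obj
  right_triangle_components K := by
    ext
    exact adj.right_triangle_components K.obj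

/-- The restriction to `D_QCoh` of the derived adjunction. -/
noncomputable def lAdjQ (hL : Dual3.LpullPreservesQCoh g)
    (hR : DCoh.RpushPreservesQCoh g) : Dual3.LpullQ g hL ⊣ DCoh.RpushQ g hR :=
  adjQ (lAdj g) hL hR

end Adj

section Abs

universe v₁ u₁ v₂ u₂

variable {𝒮 : Type u₁} [Category.{v₁} 𝒮] {D : 𝒮 → Type u₂} [∀ X, Category.{v₂} (D X)]
  (P : PullData D)

theorem isIso_bcP_of_BC {X S X' S' : 𝒮} {f : X ⟶ S} {g : S' ⟶ S} {g' : X' ⟶ X} {f' : X' ⟶ S'}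
    (w : g' ≫ f = f' ≫ g)
    {Rf : D X ⥤ D S} {Rf' : D X' ⥤ D S'} {Rg : D S' ⥤ D S} {Rg' : D X' ⥤ D X}
    {Lf : D S ⥤ D X} {Lf' : D S' ⥤ D X'} {Lg : D S ⥤ D S'} {Lg' : D X ⥤ D X'}
    (hf : P.pull f = Lf) (hf' : P.pull f' = Lf') (hg : P.pull g = Lg) (hg' : P.pull g' = Lg')
    (c : Lg ⋙ Lf' ≅ Lf ⋙ Lg') (hc : c ≍ cIso P w)
    (adjf : Lf ⊣ Rf) (adjf' : Lf' ⊣ Rf') (adjg : Lg ⊣ Rg) (adjg' : Lg' ⊣ Rg') (K : D X)
    (h : BC (cartLift (P := P) ⟨X, K⟩ g') f f' g) :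
    IsIso (Formal.bcP adjg adjg' (Formal.eOf adjf adjf' adjg adjg' c) K) := by
  subst hf hf' hg hg'
  obtain rfl := eq_of_heq hc
  exact isIso_bcMor P w adjf adjf' adjg adjg' K h

end Abs

section Can

variable {X Y X' Y' : Scheme.{u}} {f : X ⟶ Y} {g : Y' ⟶ Y} {f' : X' ⟶ Y'} {g' : X' ⟶ X}
  (w : g' ≫ f = f' ≫ g)

section

variable [DCoh.HasLpull f] [DCoh.HasLpull f'] [DCoh.HasLpull g] [DCoh.HasLpull g']

/-- The canonical identification `Lf'^* Lg^* ≅ Lg'^* Lf^*`. -/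
noncomputable def cD : DCoh.Lpull g ⋙ DCoh.Lpull f' ≅ DCoh.Lpull f ⋙ DCoh.Lpull g' :=
  cIso dPull.{u} (f := f) (g := g) (f' := f') (g' := g') w

lemma cD_heq : cD w ≍ cIso dPull.{u} (f := f) (g := g) (f' := f') (g' := g') w := HEq.rfl

/-- The canonical identification `Rf_* Rg'_* ≅ Rg_* Rf'_*` on `D(O)`, conjugate to `cD w` for the canonical
adjunctions `lAdj`. -/
noncomputable def eCan [DCoh.HasRpush f] [DCoh.HasRpush f'] [DCoh.HasRpush g] [DCoh.HasRpush g'] :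
    DCoh.Rpush g' ⋙ DCoh.Rpush f ≅ DCoh.Rpush f' ⋙ DCoh.Rpush g :=
  Formal.eOf (lAdj f) (lAdj f') (lAdj g) (lAdj g') (cD w)

end

end Can

section Square

variable {X Y X' Y' : Scheme.{u}} {f : X ⟶ Y} {g : Y' ⟶ Y} {f' : X' ⟶ Y'} {g' : X' ⟶ X}
variable [DCoh.HasRpush f] [DCoh.HasRpush f'] [DCoh.HasRpush g] [DCoh.HasRpush g']
variable {hf : DCoh.RpushPreservesQCoh f} {hf' : DCoh.RpushPreservesQCoh f'}
variable {hg : DCoh.RpushPreservesQCoh g} {hg' : DCoh.RpushPreservesQCoh g'}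
variable [DCoh.HasLpull g] [DCoh.HasLpull g'] {hLg : Dual3.LpullPreservesQCoh g}
  {hLg' : Dual3.LpullPreservesQCoh g'}

variable (hf hf' hg hg') in
/-- The restriction to `D_QCoh` of an identification of the composite direct images. -/
noncomputable def eQ (e : DCoh.Rpush g' ⋙ DCoh.Rpush f ≅ DCoh.Rpush f' ⋙ DCoh.Rpush g) :
    DCoh.RpushQ g' hg' ⋙ DCoh.RpushQ f hf ≅ DCoh.RpushQ f' hf' ⋙ DCoh.RpushQ g hg :=
  NatIso.ofComponents (fun K => ObjectProperty.isoMk _ (e.app K.obj)) (fun φ => by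
    ext
    exact e.hom.naturality φ.hom)

lemma bcPush_eQ (e : DCoh.Rpush g' ⋙ DCoh.Rpush f ≅ DCoh.Rpush f' ⋙ DCoh.Rpush g)
    (adjg : DCoh.Lpull g ⊣ DCoh.Rpush g) (adjg' : DCoh.Lpull g' ⊣ DCoh.Rpush g') (K : DCoh.DQCoh X) :
    (Dual3.bcPush (eQ hf hf' hg hg' e) (adjQ adjg hLg hg) (adjQ adjg' hLg' hg') K).hom =
      DCoh.baseChangeApp adjg adjg' e K.obj := by
  unfold Dual3.bcPush DCoh.baseChangeApp
  rw [Adjunction.homEquiv_counit, Adjunction.homEquiv_counit]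
  rfl

lemma isIso_bcPush_eQ (e : DCoh.Rpush g' ⋙ DCoh.Rpush f ≅ DCoh.Rpush f' ⋙ DCoh.Rpush g)
    (adjg : DCoh.Lpull g ⊣ DCoh.Rpush g) (adjg' : DCoh.Lpull g' ⊣ DCoh.Rpush g') (K : DCoh.DQCoh X)
    (h : IsIso (DCoh.baseChangeApp adjg adjg' e K.obj)) :
    IsIso (Dual3.bcPush (eQ hf hf' hg hg' e) (adjQ adjg hLg hg) (adjQ adjg' hLg' hg') K) := by
  rw [← ObjectProperty.isIso_hom_iff, bcPush_eQ]
  exact h

section Canonical

variable [DCoh.HasLpull f] [DCoh.HasLpull f'] (w : g' ≫ f = f' ≫ g)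

/-- The canonical base change morphism `Lg^* Rf_* K ⟶ Rf'_* Lg'^* K` on `D(O)`.  It is characterized by
`bcCan_fac`. -/
noncomputable def bcCan (K : DCoh.D X) :
    (DCoh.Lpull g).obj ((DCoh.Rpush f).obj K) ⟶ (DCoh.Rpush f').obj ((DCoh.Lpull g').obj K) :=
  Formal.bcP (lAdj g) (lAdj g') (eCan w) K

/-- The characterization of the canonical base change morphism:
`Lf'^*(bcCan K) ≫ counit = (cD w).hom ≫ Lg'^*(counit)` (stated through the definition `Formal.IsBC`, so that no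
unfolding of the derived functors is needed to use it). -/
lemma bcCan_fac (K : DCoh.D X) : Formal.IsBC (lAdj f) (lAdj f') (cD w) K (bcCan w K) :=
  Formal.isBC_bcP (lAdj f) (lAdj f') (lAdj g) (lAdj g') (cD w) K

/-- The canonical base change morphism is an isomorphism as soon as `BC` holds. -/
lemma isIso_bcCan (K : DCoh.D X) (h : BC (cartLift (P := dPull.{u}) ⟨X, K⟩ g') f f' g) :
    IsIso (bcCan w K) :=
  isIso_bcP_of_BC dPull.{u} w (pull_eq f) (pull_eq f') (pull_eq g) (pull_eq g') (cD w) (cD_heq w)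
    (lAdj f) (lAdj f') (lAdj g) (lAdj g') K h

/-- For ARBITRARY adjunctions on `D_QCoh` there is an `e` for which `Dual3.bcPush e adjg adjg' K` is, for every `K`,
THE canonical base change morphism `bcCan`. -/
theorem exists_bcPush_eq_bcCan (adjg : Dual3.LpullQ g hLg ⊣ DCoh.RpushQ g hg)
    (adjg' : Dual3.LpullQ g' hLg' ⊣ DCoh.RpushQ g' hg') :
    ∃ e : (DCoh.RpushQ g' hg' ⋙ DCoh.RpushQ f hf ≅ DCoh.RpushQ f' hf' ⋙ DCoh.RpushQ g hg),
      ∀ K : DCoh.DQCoh X, (Dual3.bcPush e adjg adjg' K).hom = bcCan w K.obj := by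
  refine ⟨Formal.twist (eQ hf hf' hg hg' (eCan w)) ((adjQ (lAdj g) hLg hg).rightAdjointUniq adjg)
    ((adjQ (lAdj g') hLg' hg').rightAdjointUniq adjg'), fun K => ?_⟩
  have h := Formal.bcP_twist (adjQ (lAdj g) hLg hg) adjg (adjQ (lAdj g') hLg' hg') adjg'
    (eQ hf hf' hg hg' (eCan w)) K
  exact (congrArg InducedCategory.Hom.hom h).trans (bcPush_eQ _ _ _ K)

end Canonical

/-- **Base change on `D_QCoh`** from base change for objects of `D(O_X)`, with an `e` which is the restriction of an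
identification on `D(O)`, for arbitrary adjunctions on `D_QCoh`. -/
theorem exists_bcPush_of_bc (w : g' ≫ f = f' ≫ g)
    (hbc : ∀ E : DCoh.D X, DCoh.IsQCohD E → BC (cartLift (P := dPull.{u}) ⟨X, E⟩ g') f f' g)
    (adjg : Dual3.LpullQ g hLg ⊣ DCoh.RpushQ g hg) (adjg' : Dual3.LpullQ g' hLg' ⊣ DCoh.RpushQ g' hg') :
    ∃ e : (DCoh.RpushQ g' hg' ⋙ DCoh.RpushQ f hf ≅ DCoh.RpushQ f' hf' ⋙ DCoh.RpushQ g hg),
      ∀ K : DCoh.DQCoh X, IsIso (Dual3.bcPush e adjg adjg' K) := by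
  have := hasLpull' f
  have := hasLpull' f'
  obtain ⟨e, he⟩ := exists_bcPush_eq_bcCan (hf := hf) (hf' := hf') w adjg adjg'
  refine ⟨e, fun K => ?_⟩
  rw [← ObjectProperty.isIso_hom_iff, he K]
  exact isIso_bcCan w K.obj (hbc K.obj K.property)

/-- **Base change on `D_QCoh`** for cartesian squares with `f` or `g` flat, for arbitrary adjunctions. -/
theorem exists_bcPush [QuasiCompact f] [QuasiSeparated f] (hflat : Flat f ∨ Flat g)
    (sq : IsPullback g' f' f g)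
    (adjg : Dual3.LpullQ g hLg ⊣ DCoh.RpushQ g hg) (adjg' : Dual3.LpullQ g' hLg' ⊣ DCoh.RpushQ g' hg') :
    ∃ e : (DCoh.RpushQ g' hg' ⋙ DCoh.RpushQ f hf ≅ DCoh.RpushQ f' hf' ⋙ DCoh.RpushQ g hg),
      ∀ K : DCoh.DQCoh X, IsIso (Dual3.bcPush e adjg adjg' K) :=
  exists_bcPush_of_bc sq.w (fun E hE => BCLeft.bc_tor hflat sq E hE) adjg adjg'

variable {a : DCoh.DQCoh Y ⥤ DCoh.DQCoh X} {a' : DCoh.DQCoh Y' ⥤ DCoh.DQCoh X'}

/-- If all base change maps `bcPush` are isomorphisms, so are all maps `xi`. -/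
theorem isIso_xi (adj : DCoh.RpushQ f hf ⊣ a) (adj' : DCoh.RpushQ f' hf' ⊣ a')
    (e : DCoh.RpushQ g' hg' ⋙ DCoh.RpushQ f hf ≅ DCoh.RpushQ f' hf' ⋙ DCoh.RpushQ g hg)
    (adjg : Dual3.LpullQ g hLg ⊣ DCoh.RpushQ g hg) (adjg' : Dual3.LpullQ g' hLg' ⊣ DCoh.RpushQ g' hg')
    (h : ∀ K : DCoh.DQCoh X, IsIso (Dual3.bcPush e adjg adjg' K)) (M : DCoh.DQCoh Y') :
    IsIso (Dual3.xi adj adj' e M) :=
  Formal.isIso_xiP adjg adjg' adj adj' e h M

end Square

/-- The content of S3602. -/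
theorem exists_xi {X Y X' Y' : Scheme.{u}} {f : X ⟶ Y} {g : Y' ⟶ Y} {f' : X' ⟶ Y'} {g' : X' ⟶ X}
    [QuasiCompact f] [QuasiSeparated f] (hflat : Flat f ∨ Flat g) (sq : IsPullback g' f' f g)
    [DCoh.HasRpush f] [DCoh.HasRpush f'] [DCoh.HasRpush g] [DCoh.HasRpush g']
    {hf : DCoh.RpushPreservesQCoh f} {hf' : DCoh.RpushPreservesQCoh f'}
    {hg : DCoh.RpushPreservesQCoh g} {hg' : DCoh.RpushPreservesQCoh g'}
    {a : DCoh.DQCoh Y ⥤ DCoh.DQCoh X} {a' : DCoh.DQCoh Y' ⥤ DCoh.DQCoh X'}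
    (adj : DCoh.RpushQ f hf ⊣ a) (adj' : DCoh.RpushQ f' hf' ⊣ a') :
    ∃ e : (DCoh.RpushQ g' hg' ⋙ DCoh.RpushQ f hf ≅ DCoh.RpushQ f' hf' ⋙ DCoh.RpushQ g hg),
      ∀ M : DCoh.DQCoh Y', IsIso (Dual3.xi adj adj' e M) := by
  have := hasLpull' g
  have := hasLpull' g'
  obtain ⟨e, he⟩ := exists_bcPush (hf := hf) (hf' := hf') hflat sq (lAdjQ (lpullPreservesQCoh g) hg)
    (lAdjQ (lpullPreservesQCoh g') hg')
  exact ⟨e, isIso_xi adj adj' e _ _ he⟩

end Groth.Agent.Dual.H306.BCPushQ
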