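import Mathlib.CategoryTheory.Adjunction.Mates
import Mathlib.CategoryTheory.Adjunction.Basic
import Mathlib.CategoryTheory.Adjunction.Unique
import Mathlib.CategoryTheory.Yoneda

/-!
# Formal properties of the maps `bcPush` and `xi`

Let `Rf : C ⥤ D`, `Rf' : C' ⥤ D'`, `Rg : D' ⥤ D`, `Rg' : C' ⥤ C` with `e : Rg' ⋙ Rf ≅ Rf' ⋙ Rg`, left adjoints
`Lg ⊣ Rg`, `Lg' ⊣ Rg'` and right adjoints `Rf ⊣ a`, `Rf' ⊣ a'`.

* `bcP` : `Lg (Rf K) ⟶ Rf' (Lg' K)`; `xiP` : `Rg' (a' M) ⟶ a (Rg M)`.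
* `xiP_trans`: `xiP` corresponds to `bcP` under the four adjunctions.
* `isIso_xiP`: if all `bcP` are isomorphisms then all `xiP` are isomorphisms (`isIso_xiP_iff`: and conversely).
* `eOf`, `bcP_fac`: if moreover `Lf ⊣ Rf`, `Lf' ⊣ Rf'`, an iso `c : Lg ⋙ Lf' ≅ Lf ⋙ Lg'` gives `e = eOf c`, and `bcP` is
  characterized by `bcP_fac`.
* `bcP_twist`: the existence of an `e` for which `bcP` is an isomorphism does not depend on the chosen adjunctions
  `Lg ⊣ Rg`, `Lg' ⊣ Rg'`.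
-/

set_option autoImplicit false

universe v₁ v₂ v₃ v₄ u₁ u₂ u₃ u₄

open CategoryTheory

namespace Groth.Agent.Dual.H306.Formal

variable {C : Type u₁} [Category.{v₁} C] {D : Type u₂} [Category.{v₂} D]
  {C' : Type u₃} [Category.{v₃} C'] {D' : Type u₄} [Category.{v₄} D']
  {Rf : C ⥤ D} {Rf' : C' ⥤ D'} {Rg : D' ⥤ D} {Rg' : C' ⥤ C} {Lg : D ⥤ D'} {Lg' : C ⥤ C'}
  {a : D ⥤ C} {a' : D' ⥤ C'}

/-- The base change map `Lg (Rf K) ⟶ Rf' (Lg' K)`. -/
def bcP (adjg : Lg ⊣ Rg) (adjg' : Lg' ⊣ Rg') (e : Rg' ⋙ Rf ≅ Rf' ⋙ Rg) (K : C) :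
    Lg.obj (Rf.obj K) ⟶ Rf'.obj (Lg'.obj K) :=
  (adjg.homEquiv _ _).symm (Rf.map (adjg'.unit.app K) ≫ e.hom.app (Lg'.obj K))

/-- The map `Rg' (a' M) ⟶ a (Rg M)`. -/
def xiP (adj : Rf ⊣ a) (adj' : Rf' ⊣ a') (e : Rg' ⋙ Rf ≅ Rf' ⋙ Rg) (M : D') :
    Rg'.obj (a'.obj M) ⟶ a.obj (Rg.obj M) :=
  adj.homEquiv _ _ (e.hom.app (a'.obj M) ≫ Rg.map (adj'.counit.app M))

section

variable (adjg : Lg ⊣ Rg) (adjg' : Lg' ⊣ Rg') (adj : Rf ⊣ a) (adj' : Rf' ⊣ a')
  (e : Rg' ⋙ Rf ≅ Rf' ⋙ Rg)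

/-- Naturality of the base change map. -/
lemma bcP_naturality {K L : C} (k : K ⟶ L) :
    Lg.map (Rf.map k) ≫ bcP adjg adjg' e L = bcP adjg adjg' e K ≫ Rf'.map (Lg'.map k) := by
  unfold bcP
  rw [← Adjunction.homEquiv_naturality_left_symm, ← Adjunction.homEquiv_naturality_right_symm]
  congr 1
  have h1 := e.hom.naturality (Lg'.map k)
  simp only [Functor.comp_map] at h1
  rw [Category.assoc, ← h1, ← Functor.map_comp_assoc, ← Functor.map_comp_assoc]
  congr 2
  exact adjg'.unit.naturality k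

/-- The base change map as a natural transformation. -/
@[simps]
def bcPTrans : Rf ⋙ Lg ⟶ Lg' ⋙ Rf' where
  app K := bcP adjg adjg' e K
  naturality _ _ k := bcP_naturality adjg adjg' e k

/-- Transposes of maps into the target of `xiP`. -/
lemma xiP_trans {K : C} {M : D'} (y : K ⟶ Rg'.obj (a'.obj M)) :
    (adjg.homEquiv _ _).symm ((adj.homEquiv _ _).symm (y ≫ xiP adj adj' e M)) =
      bcP adjg adjg' e K ≫ (adj'.homEquiv _ _).symm ((adjg'.homEquiv _ _).symm y) := by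
  apply (adjg.homEquiv _ _).injective
  rw [Equiv.apply_symm_apply, Adjunction.homEquiv_naturality_right, Adjunction.homEquiv_naturality_left_symm]
  unfold xiP bcP
  rw [Equiv.symm_apply_apply, Equiv.apply_symm_apply, Adjunction.homEquiv_counit (adj := adj'),
    Functor.map_comp, Category.assoc]
  have h1 := e.hom.naturality ((adjg'.homEquiv _ _).symm y)
  simp only [Functor.comp_map] at h1
  rw [← reassoc_of% h1, ← Functor.map_comp_assoc]
  congr 2
  exact ((adjg'.homEquiv_unit _ _ _).symm.trans (Equiv.apply_symm_apply _ _)).symm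

lemma bijective_xiP_iff (K : C) (M : D') :
    Function.Bijective (fun y : K ⟶ Rg'.obj (a'.obj M) => y ≫ xiP adj adj' e M) ↔
      Function.Bijective (fun z : Rf'.obj (Lg'.obj K) ⟶ M => bcP adjg adjg' e K ≫ z) := by
  have h : (adjg.homEquiv _ _).symm ∘ (adj.homEquiv _ _).symm ∘
      (fun y : K ⟶ Rg'.obj (a'.obj M) => y ≫ xiP adj adj' e M) =
      (fun z : Rf'.obj (Lg'.obj K) ⟶ M => bcP adjg adjg' e K ≫ z) ∘
        (adj'.homEquiv _ _).symm ∘ (adjg'.homEquiv _ _).symm := by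
    funext y
    exact xiP_trans adjg adjg' adj adj' e y
  rw [← Function.Bijective.of_comp_iff' (Equiv.bijective (adj.homEquiv K (Rg.obj M)).symm),
    ← Function.Bijective.of_comp_iff' (Equiv.bijective (adjg.homEquiv (Rf.obj K) M).symm), h,
    Function.Bijective.of_comp_iff _ ((Equiv.bijective _).comp (Equiv.bijective _))]

/-- If all base change maps `bcP` are isomorphisms, so are all maps `xiP`. -/
theorem isIso_xiP (h : ∀ K : C, IsIso (bcP adjg adjg' e K)) (M : D') : IsIso (xiP adj adj' e M) := by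
  have key : ∀ K : C, Function.Bijective
      (fun y : K ⟶ Rg'.obj (a'.obj M) => y ≫ xiP adj adj' e M) := fun K => by
    rw [bijective_xiP_iff adjg adjg' adj adj' e]
    have := h K
    exact ((asIso (bcP adjg adjg' e K)).symm.homFromEquiv).bijective
  obtain ⟨s, hs⟩ := (key (a.obj (Rg.obj M))).2 (𝟙 _)
  refine ⟨s, (key _).1 ?_, hs⟩
  dsimp only at hs ⊢
  rw [Category.assoc, hs, Category.comp_id, Category.id_comp]

/-- If all maps `xiP` are isomorphisms, so are all base change maps `bcP`. -/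
theorem isIso_bcP (h : ∀ M : D', IsIso (xiP adj adj' e M)) (K : C) : IsIso (bcP adjg adjg' e K) := by
  have key : ∀ M : D', Function.Bijective
      (fun z : Rf'.obj (Lg'.obj K) ⟶ M => bcP adjg adjg' e K ≫ z) := fun M => by
    rw [← bijective_xiP_iff adjg adjg' adj adj' e]
    have := h M
    exact ((asIso (xiP adj adj' e M)).homToEquiv).bijective
  obtain ⟨s, hs⟩ := (key (Lg.obj (Rf.obj K))).2 (𝟙 _)
  refine ⟨s, hs, (key _).1 ?_⟩
  dsimp only at hs ⊢
  rw [← Category.assoc, hs, Category.comp_id, Category.id_comp]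

theorem isIso_xiP_iff : (∀ M : D', IsIso (xiP adj adj' e M)) ↔ ∀ K : C, IsIso (bcP adjg adjg' e K) :=
  ⟨isIso_bcP adjg adjg' adj adj' e, isIso_xiP adjg adjg' adj adj' e⟩

end

section Fac

variable {Lf : D ⥤ C} {Lf' : D' ⥤ C'} (adjf : Lf ⊣ Rf) (adjf' : Lf' ⊣ Rf') (adjg : Lg ⊣ Rg)
  (adjg' : Lg' ⊣ Rg') (c : Lg ⋙ Lf' ≅ Lf ⋙ Lg')

/-- The identification of the composite right adjoints conjugate to an identification of the composite left
adjoints. -/
def eOf : Rg' ⋙ Rf ≅ Rf' ⋙ Rg :=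
  conjugateIsoEquiv (adjf.comp adjg') (adjg.comp adjf') c

/-- Characterization of the base change map attached to `eOf`. -/
lemma bcP_fac (K : C) :
    Lf'.map (bcP adjg adjg' (eOf adjf adjf' adjg adjg' c) K) ≫ adjf'.counit.app (Lg'.obj K) =
      c.hom.app (Rf.obj K) ≫ Lg'.map (adjf.counit.app K) := by
  have h1 := conjugateEquiv_counit (adjf.comp adjg') (adjg.comp adjf') c.hom (Lg'.obj K)
  have h2 : (eOf adjf adjf' adjg adjg' c).hom =
      conjugateEquiv (adjf.comp adjg') (adjg.comp adjf') c.hom := rfl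
  rw [← h2] at h1
  simp only [Adjunction.comp_counit_app, Functor.comp_map, Functor.comp_obj] at h1
  have h3 := c.hom.naturality (Rf.map (adjg'.unit.app K))
  simp only [Functor.comp_map] at h3
  unfold bcP
  rw [Adjunction.homEquiv_counit, Functor.map_comp, Functor.map_comp, Functor.map_comp,
    Category.assoc, Category.assoc]
  rw [h1, reassoc_of% h3, ← Functor.map_comp_assoc, adjf.counit_naturality, Functor.map_comp,
    Category.assoc, adjg'.left_triangle_components, Category.comp_id]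

/-- `β` is THE base change map at `K` attached to `c`: it is characterized by this identity.  (A definition, so that
it can be stated for concrete functors without any unfolding.) -/
def IsBC {Lf : D ⥤ C} {Lf' : D' ⥤ C'} (adjf : Lf ⊣ Rf) (adjf' : Lf' ⊣ Rf') (c : Lg ⋙ Lf' ≅ Lf ⋙ Lg') (K : C)
    (β : Lg.obj (Rf.obj K) ⟶ Rf'.obj (Lg'.obj K)) : Prop :=
  Lf'.map β ≫ adjf'.counit.app (Lg'.obj K) = c.hom.app (Rf.obj K) ≫ Lg'.map (adjf.counit.app K)

lemma isBC_bcP (K : C) : IsBC adjf adjf' c K (bcP adjg adjg' (eOf adjf adjf' adjg adjg' c) K) :=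
  bcP_fac adjf adjf' adjg adjg' c K

omit adjg adjg' in
lemma IsBC.unique {K : C} {β β' : Lg.obj (Rf.obj K) ⟶ Rf'.obj (Lg'.obj K)} (h : IsBC adjf adjf' c K β)
    (h' : IsBC adjf adjf' c K β') : β = β' := by
  apply (adjf'.homEquiv _ _).symm.injective
  rw [Adjunction.homEquiv_counit, Adjunction.homEquiv_counit]
  exact h.trans h'.symm

end Fac

section Twist

/-- The transposition of `e` along automorphisms of `Rg` and `Rg'`. -/
def twist (e : Rg' ⋙ Rf ≅ Rf' ⋙ Rg) (α : Rg ≅ Rg) (α' : Rg' ≅ Rg') : Rg' ⋙ Rf ≅ Rf' ⋙ Rg :=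
  Functor.isoWhiskerRight α'.symm Rf ≪≫ e ≪≫ Functor.isoWhiskerLeft Rf' α

lemma twist_hom_app (e : Rg' ⋙ Rf ≅ Rf' ⋙ Rg) (α : Rg ≅ Rg) (α' : Rg' ≅ Rg') (N : C') :
    (twist e α α').hom.app N = Rf.map (α'.inv.app N) ≫ e.hom.app N ≫ α.hom.app (Rf'.obj N) := by
  simp [twist]

lemma homEquiv_rightUniq (adjg₀ adjg : Lg ⊣ Rg) {N : D} {M : D'} (φ : Lg.obj N ⟶ M) :
    adjg.homEquiv _ _ φ = adjg₀.homEquiv _ _ φ ≫ (adjg₀.rightAdjointUniq adjg).hom.app M := by
  rw [adjg₀.homEquiv_unit, adjg.homEquiv_unit, Category.assoc, (adjg₀.rightAdjointUniq adjg).hom.naturality φ,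
    ← Category.assoc]
  congr 1
  exact (Adjunction.unit_rightAdjointUniq_hom_app adjg₀ adjg N).symm

/-- Base change for one choice of adjunctions gives base change for any other one. -/
theorem bcP_twist (adjg₀ adjg : Lg ⊣ Rg) (adjg₀' adjg' : Lg' ⊣ Rg') (e : Rg' ⋙ Rf ≅ Rf' ⋙ Rg) (K : C) :
    bcP adjg adjg' (twist e (adjg₀.rightAdjointUniq adjg) (adjg₀'.rightAdjointUniq adjg')) K =
      bcP adjg₀ adjg₀' e K := by
  apply (adjg.homEquiv _ _).injective
  rw [homEquiv_rightUniq adjg₀ adjg (bcP adjg₀ adjg₀' e K)]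
  unfold bcP
  rw [Equiv.apply_symm_apply, Equiv.apply_symm_apply, twist_hom_app, Category.assoc,
    ← Functor.map_comp_assoc]
  have h : adjg'.unit.app K ≫ (adjg₀'.rightAdjointUniq adjg').inv.app (Lg'.obj K) = adjg₀'.unit.app K := by
    rw [← Adjunction.unit_rightAdjointUniq_hom_app adjg₀' adjg' K, Category.assoc,
      Iso.hom_inv_id_app]
    exact Category.comp_id _
  rw [h]

end Twist

end Groth.Agent.Dual.H306.Formal
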